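import Groth.Agent.Gaga.H978.HMap
import Groth.Agent.An.H868.Chart
import Mathlib.Analysis.Complex.CauchyIntegral
import Mathlib.Analysis.Analytic.IsolatedZeros
import Mathlib.Analysis.Calculus.Deriv.Inv

/-!
# Holomorphic maps into the complex points of a scheme: charts and functoriality
-/

set_option autoImplicit false
open CategoryTheory AlgebraicGeometry Topology TopologicalSpace Opposite

namespace Groth.Agent.Gaga.H565.ArcMap

open Groth.Agent.An.H863.PtsBasic Groth.Agent.An.H863.PtsCont Groth.Agent.Gaga.H978.HMap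
  Groth.Agent.An.H868.Chart

variable {X : Scheme.{0}} [X.Over An.SC]
variable {E : Type*} [NormedAddCommGroup E] [NormedSpace ℂ E]

/-- A map into one affine chart is holomorphic as soon as the functions of the chart pull back to
complex-differentiable functions. -/
theorem holOn_of_chart {U : X.Opens} (hU : IsAffineOpen U) {D : Set E} (hD : IsOpen D)
    {s : E → An.Pts X} (hsU : ∀ z ∈ D, (s z).pt ∈ U)
    (h : ∀ g : Γ(X, U), DifferentiableOn ℂ (fun z => evAt (s z) U g) D) : HolOn s D := by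
  refine ⟨?_, ?_⟩
  · rw [continuousOn_iff_continuous_domRestrict]
    refine continuous_of_chart hU _ (fun t => hsU t t.2) fun g => ?_
    have h1 := (h g).continuousOn
    rw [continuousOn_iff_continuous_domRestrict] at h1
    refine h1.congr fun t => ?_
    exact evAt_of_mem (hsU t t.2) g
  · intro W g z₀ hz₀
    obtain ⟨hz₀D, hz₀W⟩ := hz₀
    obtain ⟨b, hbW, hb⟩ := hU.exists_basicOpen_le ⟨(s z₀).pt, hz₀W⟩ (hsU z₀ hz₀D)
    have hloc := hU.isLocalization_basicOpen b
    obtain ⟨⟨a, ⟨_, n, rfl⟩⟩, ha⟩ := IsLocalization.surj (Submonoid.powers b)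
      (X.presheaf.map (homOfLE hbW).op g)
    have hbU : X.basicOpen b ≤ U := X.basicOpen_le b
    have key : ∀ z ∈ D, evAt (s z) U b ≠ 0 →
        evAt (s z) W g = evAt (s z) U a / (evAt (s z) U b) ^ n := by
      intro z hzD hzb
      have hzU := hsU z hzD
      rw [evAt_of_mem hzU] at hzb
      have hzb' : (s z).pt ∈ X.basicOpen b := (ev_ne_zero_iff (s z) U hzU b).1 hzb
      rw [evAt_of_mem hzU, evAt_of_mem hzU, evAt_of_mem (hbW hzb')]
      have h1 := congrArg ((s z).ev (X.basicOpen b) hzb') ha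
      have h2 : (s z).ev (X.basicOpen b) hzb' (algebraMap Γ(X, U) Γ(X, X.basicOpen b) a) =
          (s z).ev U hzU a := ev_res (s z) hbU hzb' a
      have h3 : (s z).ev (X.basicOpen b) hzb' (algebraMap Γ(X, U) Γ(X, X.basicOpen b) (b ^ n)) =
          (s z).ev U hzU (b ^ n) := ev_res (s z) hbU hzb' _
      rw [ev_mul, h2] at h1
      rw [← h1, h3, ev_pow, ev_res (s z) hbW hzb' g, mul_div_cancel_right₀ _ (pow_ne_zero n hzb)]
    have hz₀b : evAt (s z₀) U b ≠ 0 := by
      rw [evAt_of_mem (hsU z₀ hz₀D)]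
      exact (ev_ne_zero_iff (s z₀) U (hsU z₀ hz₀D) b).2 hb
    have ho : IsOpen (D ∩ (fun z => evAt (s z) U b) ⁻¹' {0}ᶜ) :=
      (h b).continuousOn.isOpen_inter_preimage hD isOpen_compl_singleton
    have hq : DifferentiableAt ℂ (fun z => evAt (s z) U a / (evAt (s z) U b) ^ n) z₀ := by
      have h1 := (h a).differentiableAt (hD.mem_nhds hz₀D)
      have h2 := ((h b).differentiableAt (hD.mem_nhds hz₀D)).fun_pow n
      simp only [div_eq_mul_inv]
      exact h1.fun_mul (h2.fun_inv (pow_ne_zero n hz₀b))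
    refine DifferentiableAt.differentiableWithinAt (hq.congr_of_eventuallyEq ?_)
    filter_upwards [ho.mem_nhds ⟨hz₀D, hz₀b⟩] with z hz
    exact key z hz.1 hz.2

variable {Y : Scheme.{0}} [Y.Over An.SC]

lemma evAt_map (f : X ⟶ Y) [f.IsOver An.SC] (x : An.Pts X) (W : Y.Opens) (g : Γ(Y, W)) :
    evAt (An.Pts.map f x) W g = evAt x (f ⁻¹ᵁ W) (f.app W g) := by
  by_cases h : (An.Pts.map f x).pt ∈ W
  · have h' : x.pt ∈ f ⁻¹ᵁ W := by rw [An.Pts.pt_map] at h; exact h
    rw [evAt_of_mem h, evAt_of_mem h', An.Pts.ev_map]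
  · have h' : x.pt ∉ f ⁻¹ᵁ W := by rw [An.Pts.pt_map] at h; exact h
    rw [evAt_of_notMem h, evAt_of_notMem h']

/-- Morphisms over `ℂ` preserve holomorphic maps. -/
theorem holOn_map (f : X ⟶ Y) [f.IsOver An.SC] {s : E → An.Pts X} {D : Set E}
    (hs : HolOn s D) : HolOn (fun z => An.Pts.map f (s z)) D := by
  refine ⟨(An.Pts.continuous_map f).comp_continuousOn hs.continuousOn, fun W g => ?_⟩
  simp only [evAt_map]
  refine (hs.differentiableOn (f ⁻¹ᵁ W) (f.app W g)).mono fun z hz => ⟨hz.1, ?_⟩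
  have h1 : (An.Pts.map f (s z)).pt ∈ W := hz.2
  rw [An.Pts.pt_map] at h1
  exact h1

/-- The structure morphism on an affine chart. -/
lemma fromSpec_over {U : X.Opens} (hU : IsAffineOpen U) :
    hU.fromSpec ≫ (X ↘ An.SC) = Spec.map (CommRingCat.ofHom (strU U)) := by
  have h1 : hU.fromSpec ≫ (X ↘ An.SC) =
      Spec.map ((X ↘ An.SC).appLE ⊤ U le_top) ≫ (isAffineOpen_top An.SC).fromSpec :=
    (IsAffineOpen.SpecMap_appLE_fromSpec (X ↘ An.SC) (isAffineOpen_top An.SC) hU le_top).symm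
  have h2 : (isAffineOpen_top An.SC).fromSpec =
      Spec.map ((Scheme.ΓSpecIso (CommRingCat.of ℂ)).inv) := by
    rw [IsAffineOpen.fromSpec_top]
    exact (Scheme.isoSpec_Spec_inv _)
  rw [h1, h2, ← Spec.map_comp]
  rfl

end Groth.Agent.Gaga.H565.ArcMap
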